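import Cfsg.Agent.H119.EP.UThree
import Cfsg.Agent.H419.EP.Soc

/-!
# S3499-IV-L, `U₃(3)`, in terms of `HasSoc` (helper119, task 5949)
-/

set_option autoImplicit false

namespace Cfsg.Agent.H119.EP

open Subgroup Cfsg Cfsg.Agent.H284 Cfsg.Agent.H419.EP

variable {Q : Type*} [Group Q] [Finite Q] {A : Subgroup Q} {Γ : Subgroup (MulAut Q)} {F : Type*} [Field F] [Fintype F]

theorem index_le_hasSoc (h : EPT A Γ) (hF : Fintype.card F = 9) (hS : HasSoc A (PSU 3 F 3)) : A.index ≤ 379000 := by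
  obtain ⟨N, h1, h2, h3, ⟨e⟩⟩ := hS
  exact index_le_psu33 h h1 h2 (by rw [hF]; norm_num) e h3

theorem card_le_hasSoc (h : EPT A Γ) (hF : Fintype.card F = 9) (hS : HasSoc A (PSU 3 F 3)) :
    Nat.card Q ≤ 4239212544 := by
  obtain ⟨N, h1, h2, h3, ⟨e⟩⟩ := hS
  exact card_le_psu33 h h1 h2 (by rw [hF]; norm_num) e h3

end Cfsg.Agent.H119.EP
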